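import Mathlib
import Cfsg.Prelude.Def_FischerSpaces
import Cfsg.Agent.Lib.ThreeT.Cores
import Cfsg.Agent.Lib.Comp.FStar
import Cfsg.Agent.S5347

/-!
Structure of a group with a generating class of 3-transpositions.
-/

set_option autoImplicit false
set_option linter.style.haveILetI false

namespace Cfsg.Lib.ThreeT

variable {G : Type*} [Group G] {D : Set G}

theorem mem_center_of_commute_gen (hgen : Subgroup.closure D = ⊤) {x : G}
    (hx : ∀ d ∈ D, Commute d x) : x ∈ Subgroup.center G := by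
  have hc : Subgroup.closure D ≤ Subgroup.centralizer {x} := by
    rw [Subgroup.closure_le]
    intro d hd
    refine Subgroup.mem_centralizer_iff.2 fun w hw => ?_
    rw [Set.mem_singleton_iff.1 hw]; exact (hx d hd).eq.symm
  refine Subgroup.mem_center_iff.2 fun g => ?_
  have hg : g ∈ Subgroup.closure D := by rw [hgen]; trivial
  exact (Subgroup.mem_centralizer_iff.1 (hc hg) x rfl).symm

theorem GenClass.pCore_le_center [Finite G] (h : GenClass D) {p : ℕ} (hp : p.Prime) (hp3 : 3 < p) :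
    Cfsg.pCore p G ≤ Subgroup.center G := by
  haveI := Fact.mk hp
  intro x hx
  refine mem_center_of_commute_gen h.gen fun d hd => ?_
  exact Cfsg.Agent.S5347.result ⟨h.tset, h.conj, h.gen⟩ hp hp3 _
    (Cfsg.Lib.Solv.isPGroup_pCore p) hd (by rw [Subgroup.normalizer_eq_top]; trivial) x hx

theorem GenClass.exists_moved (h : GenClass D) {N : Subgroup G} [hN : N.Normal]
    (hNc : ¬ N ≤ Subgroup.center G) {d : G} (hd : d ∈ D) : ∃ g ∈ N, g * d * g⁻¹ ≠ d := by
  by_contra hcon
  push Not at hcon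
  apply hNc
  intro x hx
  refine mem_center_of_commute_gen h.gen fun e he => ?_
  obtain ⟨k, rfl⟩ := h.trans d hd e he
  have h1 := hcon (k⁻¹ * x * k) (by simpa using hN.conj_mem x hx k⁻¹)
  have h2 := (commute_conj_iff k).2 (fix_iff_commute.1 h1)
  rw [show k * (k⁻¹ * x * k) * k⁻¹ = x by group] at h2
  exact h2.symm

/-- Members with equal commuting sets, two of them. -/
theorem GenClass.pCore_exclusive [Finite G] (h : GenClass D) {d : G} (hd : d ∈ D)
    (h2 : ¬ Cfsg.pCore 2 G ≤ Subgroup.center G) : Cfsg.pCore 3 G ≤ Subgroup.center G := by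
  by_contra h3
  obtain ⟨g, hg, hgd⟩ := h.exists_moved h2 hd
  obtain ⟨k, hk, hkd⟩ := h.exists_moved h3 hd
  have hV := Vrel_of_mem_pCore h hd (h.conj g d hd) (orbit_mem_pCore hg)
  have hW := Wrel_of_mem_pCore h hd (h.conj k d hd) (orbit_mem_pCore hk)
  set v := g * d * g⁻¹
  set w := k * d * k⁻¹
  have hdv : Commute d v := ((hV d hd).1 (Commute.refl d)).symm
  have hwd : ¬ Commute d w := Wrel.not_commute (h.conj k d hd) hW hkd.symm
  have hvw : v ≠ w := fun e => hwd (e ▸ hdv)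
  have h1 : Commute w v := ((Wrel.commute_iff hW (h.conj g d hd) hgd hvw).1 hdv)
  exact hwd ((hV w (h.conj k d hd)).2 h1.symm)

/-- A perfect normal subgroup is central once it moves every member only inside a core that it
centralizes. -/
theorem GenClass.perfect_le_center (h : GenClass D) {E N : Subgroup G} [hE : E.Normal]
    (hperf : ⁅E, E⁆ = E) (hEN : ∀ g ∈ E, ∀ x ∈ N, Commute g x)
    (hmove : ∀ d ∈ D, ∀ g ∈ E, d⁻¹ * (g * d * g⁻¹) ∈ N) : E = ⊥ := by
  have hcd : ∀ d ∈ D, ∀ g ∈ E, Commute d g := by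
    intro d hd
    have hf : ∀ g ∈ E, d⁻¹ * g * d * g⁻¹ ∈ N ∧ d⁻¹ * g * d * g⁻¹ ∈ E := by
      intro g hg
      refine ⟨by have := hmove d hd g hg; rwa [show d⁻¹ * (g * d * g⁻¹) = d⁻¹ * g * d * g⁻¹ by group] at this,
        E.mul_mem ?_ (E.inv_mem hg)⟩
      simpa using hE.conj_mem g hg d⁻¹
    let φ : E →* G :=
      { toFun := fun g => d⁻¹ * (g : G) * d * (g : G)⁻¹
        map_one' := by simp
        map_mul' := fun g k => by
          show d⁻¹ * ((g : G) * k) * d * ((g : G) * k)⁻¹ = _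
          have hc := hEN g g.2 _ (hf k k.2).1
          calc d⁻¹ * ((g : G) * k) * d * ((g : G) * k)⁻¹
              = d⁻¹ * g * d * ((d⁻¹ * k * d * (k : G)⁻¹) * (g : G)⁻¹) := by group
            _ = d⁻¹ * g * d * ((g : G)⁻¹ * (d⁻¹ * k * d * (k : G)⁻¹)) := by rw [(hc.inv_left).eq]
            _ = _ := by group }
    intro g hg
    have hker : (⊤ : Subgroup E) ≤ φ.ker := by
      have hE' : commutator E = ⊤ := by
        apply Subgroup.map_injective E.subtype_injective
        rw [Subgroup.map_subtype_commutator, hperf, ← MonoidHom.range_eq_map, Subgroup.range_subtype]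
      rw [← hE', commutator_def, Subgroup.commutator_le]
      intro a _ b _
      rw [MonoidHom.mem_ker, map_commutatorElement, commutatorElement_eq_one_iff_commute]
      exact hEN _ (hf a a.2).2 _ (hf b b.2).1
    have h1 := MonoidHom.mem_ker.1 (hker (Subgroup.mem_top ⟨g, hg⟩))
    change d⁻¹ * g * d * g⁻¹ = 1 at h1
    show d * g = g * d
    rw [mul_inv_eq_one] at h1
    calc d * g = d * (d⁻¹ * g * d) := by rw [h1]
      _ = g * d := by group
  rw [← hperf, Subgroup.commutator_eq_bot_iff_le_centralizer]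
  intro g hg
  refine Subgroup.mem_centralizer_iff.2 fun k _ => ?_
  exact Subgroup.mem_center_iff.1 (mem_center_of_commute_gen h.gen fun d hd => hcd d hd g hg) k

theorem GenClass.layer_move_two [Finite G] (h : GenClass D)
    (h2 : ¬ Cfsg.pCore 2 G ≤ Subgroup.center G) : Cfsg.layer G = ⊥ := by
  haveI : Fact (Nat.Prime 2) := ⟨Nat.prime_two⟩
  haveI := (Cfsg.Lib.Solv.isPGroup_pCore (G := G) 2).isNilpotent
  have hEN : ∀ g ∈ Cfsg.layer G, ∀ x ∈ Cfsg.pCore 2 G, Commute g x := fun g hg x hx =>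
    (Subgroup.mem_centralizer_iff.1 (Subgroup.commutator_eq_bot_iff_le_centralizer.1
      (Cfsg.Lib.Comp.layer_commute_solvable inferInstance) hg) x hx).symm
  refine h.perfect_le_center (N := Cfsg.pCore 2 G) Cfsg.Lib.Comp.layer_perfect hEN ?_
  intro d hd g hg
  obtain ⟨k, hk, hkd⟩ := h.exists_moved h2 hd
  have hv := h.conj k d hd
  have hV := Vrel_of_mem_pCore h hd hv (orbit_mem_pCore hk)
  set v := k * d * k⁻¹
  have hV' := hV.conj h g
  have hfix : g * (d * v) * g⁻¹ = d * v := by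
    rw [(hEN g hg _ (Vrel.mem_pCore h hd hv hV)).eq, mul_inv_cancel_right]
  rw [show g * (d * v) * g⁻¹ = g * d * g⁻¹ * (g * v * g⁻¹) by group] at hfix
  have hC : ∀ {a b : G}, a ∈ D → b ∈ D → a ≠ b → Vrel D a b → ∀ e ∈ D,
      (Commute e (a * b) ↔ Commute a e) := by
    intro a b ha hb hab hV e he
    have hc : Commute a b := ((hV a ha).1 (Commute.refl a)).symm
    refine ⟨fun hce => ?_, fun hce => hce.symm.mul_right ((hV e he).1 hce).symm⟩
    exact (commute_left_of_commute_mul (h.tset.1 a ha) (h.tset.1 b hb) (h.tset.1 e he) hab hc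
      (odd_or_two h.tset he ha) (odd_or_two h.tset he hb) hce).symm
  have hrel : Vrel D d (g * d * g⁻¹) := fun e he => by
    rw [← hC hd hv hkd.symm hV e he, ← hfix,
      hC (h.conj g d hd) (h.conj g v hv) (fun e => hkd.symm (mul_left_cancel (mul_right_cancel e))) hV' e he]
  have := Vrel.mem_pCore h hd (h.conj g d hd) hrel
  rwa [inv_self (h.tset.1 d hd)]

theorem GenClass.layer_move_three [Finite G] (h : GenClass D)
    (h3 : ¬ Cfsg.pCore 3 G ≤ Subgroup.center G) : Cfsg.layer G = ⊥ := by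
  haveI : Fact (Nat.Prime 3) := ⟨Nat.prime_three⟩
  haveI := (Cfsg.Lib.Solv.isPGroup_pCore (G := G) 3).isNilpotent
  have hEN : ∀ g ∈ Cfsg.layer G, ∀ x ∈ Cfsg.pCore 3 G, Commute g x := fun g hg x hx =>
    (Subgroup.mem_centralizer_iff.1 (Subgroup.commutator_eq_bot_iff_le_centralizer.1
      (Cfsg.Lib.Comp.layer_commute_solvable inferInstance) hg) x hx).symm
  refine h.perfect_le_center (N := Cfsg.pCore 3 G) Cfsg.Lib.Comp.layer_perfect hEN ?_
  intro d hd g hg
  obtain ⟨k, hk, hkd⟩ := h.exists_moved h3 hd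
  have hv := h.conj k d hd
  have hW := Wrel_of_mem_pCore h hd hv (orbit_mem_pCore hk)
  set v := k * d * k⁻¹
  have hW' := hW.conj h g
  have hfix : g * (d * v) * g⁻¹ = d * v := by
    rw [(hEN g hg _ (Wrel.mem_pCore h hd hv hW)).eq, mul_inv_cancel_right]
  rw [show g * (d * v) * g⁻¹ = g * d * g⁻¹ * (g * v * g⁻¹) by group] at hfix
  have hC : ∀ {a b : G}, a ∈ D → b ∈ D → a ≠ b → Wrel D a b →
      com D a = {e | e ∈ D ∧ Commute e (a * b)} := by
    intro a b ha hb hab hW
    ext e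
    constructor
    · intro he
      have he' := he
      rw [hW] at he'
      exact ⟨he.1, he.2.2.symm.mul_right he'.2.2.symm⟩
    · rintro ⟨he, hce⟩
      have haa := mul_self (h.tset.1 a ha)
      have hee := mul_self (h.tset.1 e he)
      have h3 : (a * b) ^ 3 = 1 := (h.tset.2 a ha b hb).resolve_left fun h2 =>
        Wrel.not_commute hb hW hab ((commute_iff_sq (h.tset.1 a ha) (h.tset.1 b hb)).2 h2)
      have hinv : ∀ y : G, a * y * a⁻¹ = a * y * a := fun y => by rw [inv_self (h.tset.1 a ha)]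
      have hainv : a * (a * b) * a⁻¹ = (a * b)⁻¹ := by
        rw [mul_inv_rev, inv_self (h.tset.1 a ha), inv_self (h.tset.1 b hb), ← mul_assoc, haa,
          one_mul]
      have hxne : a * b ≠ (a * b)⁻¹ := by
        intro e'
        have h2 : (a * b) ^ 2 = 1 := by rw [sq]; nth_rewrite 2 [e']; exact mul_inv_cancel _
        have := eq_one_of_sq_cube h2 h3
        rw [mul_eq_one_iff_eq_inv, inv_self (h.tset.1 b hb)] at this
        exact hab this
      have hea : e ≠ a := by
        intro e'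
        subst e'
        apply hxne
        rw [hce.eq, mul_inv_cancel_right] at hainv
        exact hainv
      refine ⟨he, hea, ?_⟩
      by_contra hnc
      apply hxne
      have hbr := braid h.tset ha he hnc
      have h1 : (a * e * a) * (a * b) * (a * e * a)⁻¹ = a * b := by
        have hfe : e * (a * b) * e⁻¹ = a * b := by rw [hce.eq, mul_inv_cancel_right]
        calc (a * e * a) * (a * b) * (a * e * a)⁻¹
            = a * (e * (a * (a * b) * a⁻¹) * e⁻¹) * a⁻¹ := by group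
          _ = a * (e * (a * b) * e⁻¹)⁻¹ * a⁻¹ := by rw [hainv]; group
          _ = (a * (a * b) * a⁻¹)⁻¹ := by rw [hfe]; group
          _ = a * b := by rw [hainv, inv_inv]
      rw [hbr] at h1
      have h2 : (e * a * e) * (a * b) * (e * a * e)⁻¹ = (a * b)⁻¹ := by
        have hfe : e * (a * b) * e⁻¹ = a * b := by rw [hce.eq, mul_inv_cancel_right]
        calc (e * a * e) * (a * b) * (e * a * e)⁻¹
            = e * (a * (e * (a * b) * e⁻¹) * a⁻¹) * e⁻¹ := by group
          _ = e * (a * b)⁻¹ * e⁻¹ := by rw [hfe, hainv]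
          _ = (e * (a * b) * e⁻¹)⁻¹ := by group
          _ = (a * b)⁻¹ := by rw [hfe]
      exact h1.symm.trans h2
  have hrel : Wrel D d (g * d * g⁻¹) := by
    unfold Wrel
    rw [hC hd hv hkd.symm hW,
      hC (h.conj g d hd) (h.conj g v hv) (fun e => hkd.symm (mul_left_cancel (mul_right_cancel e))) hW',
      hfix]
  have := Wrel.mem_pCore h hd (h.conj g d hd) hrel
  rwa [inv_self (h.tset.1 d hd)]

theorem GenClass.exists_pCore_ne_bot [Finite G] {N : Subgroup G} [N.Normal]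
    (hN : N ≠ ⊥) (hs : Group.IsSolvable ↥N) :
    ∃ p : ℕ, p.Prime ∧ Cfsg.pCore p G ≠ ⊥ := by
  obtain ⟨M, hM, hMN, hMne, hmin⟩ := Cfsg.Lib.Solv.exists_minimal_normal_le hN
  obtain ⟨-, p, hp, hMp, -⟩ := Cfsg.Lib.Solv.minimal_normal_elementary hMne
    (Cfsg.Lib.Solv.solvable_of_le hMN hs) hmin
  exact ⟨p, hp, fun e => hMne (le_bot_iff.1 (e ▸ Cfsg.Lib.Solv.le_pCore hM hMp))⟩

/-- Primitivity on the class in terms of invariant equivalence relations. -/
theorem GenClass.rel_of_prim (h : GenClass D) (hp : Cfsg.IsPrimitiveUnderConj D)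
    (R : G → G → Prop) (hR : Equivalence R)
    (hinv : ∀ g x y : G, R x y → R (g * x * g⁻¹) (g * y * g⁻¹)) {a b : G} (ha : a ∈ D) (hb : b ∈ D)
    (hab : a ≠ b) (hRab : R a b) : ∀ x ∈ D, ∀ y ∈ D, R x y := by
  set B := {y | y ∈ D ∧ R a y} with hB
  rcases hp.2.2 B (fun y hy => hy.1) (fun g => by
    by_cases hga : R a (g * a * g⁻¹)
    · left
      refine Set.Subset.antisymm ?_ fun y hy => ⟨g⁻¹ * y * g, ⟨?_, ?_⟩, by group⟩
      · rintro _ ⟨y, hy, rfl⟩
        exact ⟨h.conj g y hy.1, hR.trans hga (hinv g a y hy.2)⟩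
      · simpa using h.conj g⁻¹ y hy.1
      · have h1 := hinv g⁻¹ _ _ (hR.trans (hR.symm hga) hy.2)
        simpa [mul_assoc] using h1
    · right
      rw [Set.disjoint_left]
      rintro _ ⟨y, hy, rfl⟩ hy'
      exact hga (hR.trans hy'.2 (hR.symm (hinv g a y hy.2)))) with h1 | h1
  · exact absurd (h1 ⟨ha, hR.refl a⟩ ⟨hb, hRab⟩) hab
  · intro x hx y hy
    have hx' : x ∈ B := by rw [h1]; exact hx
    have hy' : y ∈ B := by rw [h1]; exact hy
    exact hR.trans (hR.symm hx'.2) hy'.2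

theorem Big.isPrimitive (h : Big D) : Cfsg.IsPrimitiveUnderConj D := by
  obtain ⟨p, hp, q, hq, hpq, hc⟩ := h.cpair
  refine ⟨h.trans, ⟨p, hp, q, hq, hpq⟩, fun B hBD hblock => ?_⟩
  by_cases hsub : B.Subsingleton
  · exact Or.inl hsub
  right
  rw [Set.not_subsingleton_iff] at hsub
  obtain ⟨a, ha, b, hb, hab⟩ := hsub
  have key : ∀ g k : G, ∀ x, x ∈ (fun x => g * x * g⁻¹) '' B → x ∈ (fun x => k * x * k⁻¹) '' B →
      (fun x => g * x * g⁻¹) '' B = (fun x => k * x * k⁻¹) '' B := by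
    intro g k x hxg hxk
    obtain ⟨u, hu, rfl⟩ := hxg
    obtain ⟨v, hv, hvu⟩ := hxk
    rcases hblock (k⁻¹ * g) with he | he
    · calc (fun x => g * x * g⁻¹) '' B
          = (fun x => k * x * k⁻¹) '' ((fun x => k⁻¹ * g * x * (k⁻¹ * g)⁻¹) '' B) := by
            rw [Set.image_image]; congr 1; funext x; group
        _ = _ := by rw [he]
    · refine absurd hv (Set.disjoint_left.1 he ⟨u, hu, ?_⟩)
      show k⁻¹ * g * u * (k⁻¹ * g)⁻¹ = v
      calc k⁻¹ * g * u * (k⁻¹ * g)⁻¹ = k⁻¹ * (g * u * g⁻¹) * k := by group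
        _ = k⁻¹ * (k * v * k⁻¹) * k := by rw [show k * v * k⁻¹ = g * u * g⁻¹ from hvu]
        _ = v := by group
  let R : G → G → Prop := fun x y =>
    x = y ∨ ∃ g : G, x ∈ (fun x => g * x * g⁻¹) '' B ∧ y ∈ (fun x => g * x * g⁻¹) '' B
  have hR : Equivalence R := by
    refine ⟨fun _ => Or.inl rfl, ?_, ?_⟩
    · rintro x y (rfl | ⟨g, h1, h2⟩)
      · exact Or.inl rfl
      · exact Or.inr ⟨g, h2, h1⟩
    · rintro x y z (rfl | ⟨g, h1, h2⟩) h'
      · exact h'
      rcases h' with rfl | ⟨k, h3, h4⟩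
      · exact Or.inr ⟨g, h1, h2⟩
      · exact Or.inr ⟨g, h1, by rw [key g k y h2 h3]; exact h4⟩
  have hall := h.primitive R hR (fun g x y hxy => by
    rcases hxy with rfl | ⟨k, ⟨u, hu, rfl⟩, ⟨v, hv, rfl⟩⟩
    · exact Or.inl rfl
    · exact Or.inr ⟨g * k, ⟨u, hu, by group⟩, ⟨v, hv, by group⟩⟩) (hBD ha) (hBD hb) hab
    (Or.inr ⟨1, ⟨a, ha, by simp⟩, ⟨b, hb, by simp⟩⟩)
  refine Set.Subset.antisymm hBD fun y hy => ?_
  rcases hall a (hBD ha) y hy with rfl | ⟨g, hga, hgy⟩
  · exact ha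
  · have he := key g 1 a hga ⟨a, ha, by simp⟩
    rw [he] at hgy
    simpa using hgy

end Cfsg.Lib.ThreeT
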