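import Mathlib
import Cfsg.Agent.Lib.ThreeT.Structure
import Cfsg.Agent.Lib.Comp.FStar

/-!
Components of a group with a generating class of 3-transpositions.
-/

set_option autoImplicit false
set_option linter.style.haveILetI false

namespace Cfsg.Lib.ThreeT

variable {G : Type*} [Group G] {D : Set G}

/-- A subgroup whose elements all square or cube into a central subgroup is solvable. -/
theorem solvable_of_sq_cube [Finite G] {K : Subgroup G} {Z : Subgroup ↥K} [Z.Normal]
    (hZ : Z ≤ Subgroup.center ↥K) (h : ∀ n : K, n ^ 2 ∈ Z ∨ n ^ 3 ∈ Z) : Group.IsSolvable ↥K := by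
  set Q := ↥K ⧸ Z
  have hprimes : ∀ q : ℕ, q.Prime → q ∣ Nat.card Q → q = 2 ∨ q = 3 := by
    intro q hq hqd
    haveI := Fact.mk hq
    obtain ⟨x, hx⟩ := exists_prime_orderOf_dvd_card' q hqd
    obtain ⟨n, rfl⟩ := QuotientGroup.mk_surjective x
    rcases h n with h2 | h3
    · have := orderOf_dvd_of_pow_eq_one (show (QuotientGroup.mk n : Q) ^ 2 = 1 by
        rw [← QuotientGroup.mk_pow]; exact (QuotientGroup.eq_one_iff _).2 h2)
      exact Or.inl ((Nat.prime_dvd_prime_iff_eq hq Nat.prime_two).1 (hx ▸ this))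
    · have := orderOf_dvd_of_pow_eq_one (show (QuotientGroup.mk n : Q) ^ 3 = 1 by
        rw [← QuotientGroup.mk_pow]; exact (QuotientGroup.eq_one_iff _).2 h3)
      exact Or.inr ((Nat.prime_dvd_prime_iff_eq hq Nat.prime_three).1 (hx ▸ this))
  have hc1 : ordCompl[3] (ordCompl[2] (Nat.card Q)) = 1 := by
    by_contra hc
    obtain ⟨q, hq, hqd⟩ := Nat.exists_prime_and_dvd hc
    have hpos : ordCompl[2] (Nat.card Q) ≠ 0 := (Nat.ordCompl_pos 2 Nat.card_pos.ne').ne'
    have hqd2 : q ∣ ordCompl[2] (Nat.card Q) := hqd.trans (Nat.ordCompl_dvd _ _)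
    rcases hprimes q hq (hqd2.trans (Nat.ordCompl_dvd _ _)) with rfl | rfl
    · exact Nat.not_dvd_ordCompl Nat.prime_two Nat.card_pos.ne' hqd2
    · exact Nat.not_dvd_ordCompl Nat.prime_three hpos hqd
  haveI : Group.IsSolvable Q := by
    refine Cfsg.Lib.Characters.isSolvable_of_card_eq_pow_mul_pow Nat.prime_two Nat.prime_three
      (Nat.card Q) Q rfl
      ⟨(Nat.card Q).factorization 2, (ordCompl[2] (Nat.card Q)).factorization 3, ?_⟩
    have e1 := Nat.ordProj_mul_ordCompl_eq_self (Nat.card Q) 2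
    have e2 := Nat.ordProj_mul_ordCompl_eq_self (ordCompl[2] (Nat.card Q)) 3
    rw [hc1, mul_one] at e2
    rw [e2, e1]
  haveI : Group.IsSolvable ↥Z :=
    Cfsg.Lib.Solv.solvable_of_le hZ (Group.isSolvable_of_comm fun a b => mul_comm' a b)
  exact Group.isSolvable_of_ker_le_range Z.subtype (QuotientGroup.mk' Z)
    (by rw [QuotientGroup.ker_mk', Subgroup.range_subtype])

/-- Every component is normal. -/
theorem GenClass.component_normal [Finite G] (h : GenClass D) {K : Subgroup G}
    (hK : Cfsg.IsComponent K) : K.Normal := by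
  rw [← Subgroup.normalizer_eq_top_iff, eq_top_iff, ← h.gen, Subgroup.closure_le]
  intro d hd
  have hdd := mul_self (h.tset.1 d hd)
  set K' := K.map (MulAut.conj d).toMonoidHom with hK'
  suffices hKK : K' = K by
    have hmem : ∀ s ∈ K, d * s * d⁻¹ ∈ K := fun s hs => hKK ▸ ⟨s, hs, rfl⟩
    refine Subgroup.mem_normalizer_iff.2 fun x => ⟨hmem x, fun hx => ?_⟩
    have := hmem _ hx
    rwa [inv_self (h.tset.1 d hd), show d * (d * x * d) * d = x by
      simp only [mul_assoc, cancel hdd, hdd, mul_one]] at this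
  by_contra hne
  have hcom : ∀ s ∈ K, ∀ t ∈ K', Commute s t := fun s hs t ht =>
    (Subgroup.mem_centralizer_iff.1 (Subgroup.commutator_eq_bot_iff_le_centralizer.1
      (Cfsg.Lib.Comp.component_commute hK (Cfsg.Lib.Comp.component_conj d hK) (Ne.symm hne)) hs) t ht).symm
  refine Cfsg.Lib.Comp.component_not_solvable hK (solvable_of_sq_cube (Z := Subgroup.center ↥K) le_rfl ?_)
  rintro ⟨n, hn⟩
  have ht : d * n * d⁻¹ ∈ K' := ⟨n, hn, rfl⟩
  have he : d * (n * d * n⁻¹) = d * n * d⁻¹ * n⁻¹ := by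
    rw [inv_self (h.tset.1 d hd)]; simp only [mul_assoc]
  have hkey : ∀ k : ℕ, (d * (n * d * n⁻¹)) ^ k = 1 →
      (⟨n, hn⟩ : K) ^ k ∈ Subgroup.center ↥K := by
    intro k hk
    rw [he, ((hcom n hn _ ht).inv_left).symm.mul_pow, inv_pow, mul_inv_eq_one] at hk
    refine Subgroup.mem_center_iff.2 fun y => Subtype.ext ?_
    have hmem : n ^ k ∈ K' := hk ▸ K'.pow_mem ht k
    exact (hcom y y.2 _ hmem).eq
  rcases h.tset.2 d hd _ (h.conj n d hd) with h2 | h3
  · exact Or.inl (hkey 2 h2)
  · exact Or.inr (hkey 3 h3)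

/-- A member centralizes no component. -/
theorem GenClass.exists_not_commute_component [Finite G] (h : GenClass D) {K : Subgroup G}
    (hK : Cfsg.IsComponent K) : ∀ b ∈ D, ∃ n ∈ K, ¬ Commute b n := by
  intro b hb
  haveI := h.component_normal hK
  by_contra hcon
  push Not at hcon
  have hle : K ≤ Subgroup.center G := by
    intro n hn
    refine mem_center_of_commute_gen h.gen fun x hx => ?_
    obtain ⟨g, rfl⟩ := h.trans b hb x hx
    have hm := hcon (g⁻¹ * n * g) (by simpa using (inferInstance : K.Normal).conj_mem n hn g⁻¹)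
    have := (commute_conj_iff g).2 hm
    rwa [show g * (g⁻¹ * n * g) * g⁻¹ = n by group] at this
  exact Cfsg.Lib.Comp.component_not_solvable hK
    (Cfsg.Lib.Solv.solvable_of_le hle (Group.isSolvable_of_comm fun a b => mul_comm' a b))

/-- A member does not commute with the whole component orbit of a member commuting with it. -/
theorem GenClass.component_hex [Finite G] (h : GenClass D) {N : Subgroup G}
    (hK : Cfsg.IsComponent N) : ∀ a ∈ D, ∀ b ∈ D, Commute a b →
      ∃ n ∈ N, ¬ Commute a (n * b * n⁻¹) := by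
  have hN := h.component_normal hK
  haveI := hN
  have hnotcomm := h.exists_not_commute_component hK
  intro a ha b hb hab
  have haa := mul_self (h.tset.1 a ha)
  have hbb := mul_self (h.tset.1 b hb)
  have hai := inv_self (h.tset.1 a ha)
  have hbi := inv_self (h.tset.1 b hb)
  by_contra hcon
  push Not at hcon
  set M := Subgroup.closure {x | ∃ n ∈ N, x = b * (n * b * n⁻¹)} with hM
  have hMN : M ≤ N := by
    rw [hM, Subgroup.closure_le]
    rintro _ ⟨n, hn, rfl⟩
    have := N.mul_mem (hN.conj_mem n hn b) (N.inv_mem hn)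
    rwa [hbi, show b * n * b * n⁻¹ = b * (n * b * n⁻¹) by simp only [mul_assoc]] at this
  have hc : ∀ m ∈ N, ∀ x ∈ M, m * x * m⁻¹ ∈ M := by
    intro m hm x hx
    induction hx using Subgroup.closure_induction with
    | mem x hx =>
      obtain ⟨n, hn, rfl⟩ := hx
      have h1 := M.mul_mem (M.inv_mem (Subgroup.subset_closure ⟨m, hm, rfl⟩))
        (Subgroup.subset_closure (show b * (m * n * b * (m * n)⁻¹) ∈
          {x | ∃ n ∈ N, x = b * (n * b * n⁻¹)} from ⟨m * n, N.mul_mem hm hn, rfl⟩))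
      rwa [show (b * (m * b * m⁻¹))⁻¹ * (b * (m * n * b * (m * n)⁻¹)) =
          m * (b * (n * b * n⁻¹)) * m⁻¹ by
        simp only [mul_inv_rev, inv_inv, hbi, mul_assoc, cancel hbb, inv_mul_cancel_left]] at h1
    | one => simpa using M.one_mem
    | mul x y _ _ h1 h2 => simpa [mul_assoc] using M.mul_mem h1 h2
    | inv x _ h1 => simpa [mul_assoc] using M.inv_mem h1
  haveI : (M.subgroupOf N).Normal := ⟨fun x hx g => hc g g.2 x hx⟩
  rcases Cfsg.Lib.Comp.isQuasisimple_normal hK.2 (M.subgroupOf N) with htop | hcen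
  · obtain ⟨n, hn, han⟩ := hnotcomm a ha
    apply han
    have hn' : n ∈ M := Subgroup.subgroupOf_eq_top.1 htop hn
    have hle : M ≤ Subgroup.centralizer {a} := by
      rw [hM, Subgroup.closure_le]
      rintro _ ⟨k, hk, rfl⟩
      refine Subgroup.mem_centralizer_iff.2 fun w hw => ?_
      rw [Set.mem_singleton_iff.1 hw]
      exact hab.mul_right (hcon k hk)
    exact Subgroup.mem_centralizer_iff.1 (hle hn') a rfl
  · -- then `b` would centralize the component
    obtain ⟨n, hn, hbn⟩ := hnotcomm b hb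
    apply hbn
    have hz : ∀ m ∈ N, b * m * b⁻¹ * m⁻¹ ∈ M ∧ ∀ k ∈ N, Commute k (b * m * b⁻¹ * m⁻¹) := by
      intro m hm
      have hmem : b * m * b⁻¹ * m⁻¹ ∈ M := by
        rw [hbi, show b * m * b * m⁻¹ = b * (m * b * m⁻¹) by simp only [mul_assoc]]
        exact Subgroup.subset_closure ⟨m, hm, rfl⟩
      refine ⟨hmem, fun k hk => ?_⟩
      exact congrArg Subtype.val (Subgroup.mem_center_iff.1
        (hcen (show (⟨_, hMN hmem⟩ : N) ∈ M.subgroupOf N from hmem)) ⟨k, hk⟩)
    let φ : N →* G :=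
      { toFun := fun g => b * (g : G) * b⁻¹ * (g : G)⁻¹
        map_one' := by simp
        map_mul' := fun g k => by
          show b * ((g : G) * k) * b⁻¹ * ((g : G) * k)⁻¹ = _
          have hk := (hz k k.2).2 (g : G) g.2
          calc b * ((g : G) * k) * b⁻¹ * ((g : G) * k)⁻¹
              = b * g * b⁻¹ * ((b * k * b⁻¹ * (k : G)⁻¹) * (g : G)⁻¹) := by group
            _ = b * g * b⁻¹ * ((g : G)⁻¹ * (b * k * b⁻¹ * (k : G)⁻¹)) := by rw [(hk.inv_left).eq]
            _ = _ := by group }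
    have hker : (⊤ : Subgroup N) ≤ φ.ker := by
      have hE' : commutator N = ⊤ := by
        apply Subgroup.map_injective N.subtype_injective
        rw [Subgroup.map_subtype_commutator, Cfsg.Lib.Comp.component_perfect hK,
          ← MonoidHom.range_eq_map, Subgroup.range_subtype]
      rw [← hE', commutator_def, Subgroup.commutator_le]
      intro p _ q _
      rw [MonoidHom.mem_ker, map_commutatorElement, commutatorElement_eq_one_iff_commute]
      exact (hz q q.2).2 _ (hMN (hz p p.2).1)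
    have h1 := MonoidHom.mem_ker.1 (hker (Subgroup.mem_top ⟨n, hn⟩))
    change b * n * b⁻¹ * n⁻¹ = 1 at h1
    exact mul_inv_eq_iff_eq_mul.1 (mul_inv_eq_one.1 h1)

/-- Commuting members are conjugate under every component. -/
theorem GenClass.component_orbit [Finite G] (h : GenClass D) {N : Subgroup G}
    (hK : Cfsg.IsComponent N) : ∀ a ∈ D, ∀ b ∈ D, Commute a b → ∃ n ∈ N, n * b * n⁻¹ = a := by
  have hN := h.component_normal hK
  haveI := hN
  have hnotcomm := h.exists_not_commute_component hK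
  intro a ha b hb hab
  have haa := mul_self (h.tset.1 a ha)
  have hbb := mul_self (h.tset.1 b hb)
  have hai := inv_self (h.tset.1 a ha)
  have hbi := inv_self (h.tset.1 b hb)
  obtain ⟨n, hn, han⟩ := h.component_hex hK a ha b hb hab
  set n' := a * n * a⁻¹ with hn'
  have hn'N : n' ∈ N := hN.conj_mem n hn a
  have hbr := braid h.tset ha (h.conj n b hb) han
  have haba : a * (n * b * n⁻¹) * a = n' * b * n'⁻¹ := by
    rw [hn', show a * (n * b * n⁻¹) * a = a * n * a⁻¹ * (a * b * a) * (a * n * a⁻¹)⁻¹ by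
      simp only [mul_inv_rev, inv_inv, hai, mul_assoc, cancel haa],
      show a * b * a = b by rw [hab.eq, mul_assoc, haa, mul_one]]
  refine ⟨n * (b * (n⁻¹ * n') * b⁻¹), N.mul_mem hn
    (hN.conj_mem _ (N.mul_mem (N.inv_mem hn) hn'N) b), ?_⟩
  have hb' : n * b * n⁻¹ * (n * b * n⁻¹) = 1 := by
    rw [show n * b * n⁻¹ * (n * b * n⁻¹) = n * (b * b) * n⁻¹ by group, hbb]; group
  calc n * (b * (n⁻¹ * n') * b⁻¹) * b * (n * (b * (n⁻¹ * n') * b⁻¹))⁻¹
      = n * b * n⁻¹ * (n' * b * n'⁻¹) * (n * b * n⁻¹) := by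
        simp only [mul_inv_rev, inv_inv, hbi, mul_assoc, cancel hbb]
    _ = n * b * n⁻¹ * (n * b * n⁻¹ * a * (n * b * n⁻¹)) * (n * b * n⁻¹) := by rw [← haba, hbr]
    _ = a := by
        generalize n * b * n⁻¹ = X at hb' ⊢
        rw [← mul_assoc, ← mul_assoc, hb', one_mul, mul_assoc, hb', mul_one]

theorem GenClass.exists_cpair_of_component [Finite G] (h : GenClass D) {K : Subgroup G}
    (hK : Cfsg.IsComponent K) {d : G} (hd : d ∈ D) : ∃ a ∈ D, ∃ b ∈ D, a ≠ b ∧ Commute a b := by
  by_contra hcon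
  push Not at hcon
  haveI := h.nilpotent_of_no_cpair hd hcon
  refine Cfsg.Lib.Comp.component_not_solvable hK (Cfsg.Lib.Solv.solvable_of_le ?_ (inferInstance : Group.IsSolvable ↥(commutator G)))
  rw [← Cfsg.Lib.Comp.component_perfect hK]
  exact Subgroup.commutator_mono le_top le_top

/-- There is at most one component. -/
theorem GenClass.component_unique [Finite G] (h : GenClass D) {d : G} (hd : d ∈ D)
    {K K' : Subgroup G} (hK : Cfsg.IsComponent K) (hK' : Cfsg.IsComponent K') : K = K' := by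
  by_contra hne
  have hcom : ∀ s ∈ K, ∀ t ∈ K', Commute s t := fun s hs t ht =>
    (Subgroup.mem_centralizer_iff.1 (Subgroup.commutator_eq_bot_iff_le_centralizer.1
      (Cfsg.Lib.Comp.component_commute hK hK' hne) hs) t ht).symm
  obtain ⟨a, ha, b, hb, hab, hc⟩ := h.exists_cpair_of_component hK hd
  haveI hKn := h.component_normal hK
  haveI hKn' := h.component_normal hK'
  obtain ⟨n, hn, hna⟩ := h.component_orbit hK b hb a ha hc.symm
  obtain ⟨m, hm, hma⟩ := h.component_hex hK' a ha a ha (Commute.refl a)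
  set c := m * a * m⁻¹ with hc'
  have hcD : c ∈ D := h.conj m a ha
  have haa := mul_self (h.tset.1 a ha)
  have hu : b * a ∈ K := by
    rw [← hna]
    have h1 : a * n⁻¹ * a⁻¹ ∈ K := hKn.conj_mem _ (K.inv_mem hn) a
    rw [inv_self (h.tset.1 a ha)] at h1
    simpa [mul_assoc] using K.mul_mem hn h1
  have hw : a * c ∈ K' := by
    have h1 : a * m * a⁻¹ ∈ K' := hKn'.conj_mem m hm a
    rw [inv_self (h.tset.1 a ha)] at h1
    rw [hc']
    simpa [mul_assoc] using K'.mul_mem h1 (K'.inv_mem hm)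
  have hcomm : Commute (b * a) (a * c) := hcom _ hu _ hw
  have hu2 : (b * a) ^ 2 = 1 := (commute_iff_sq (h.tset.1 b hb) (h.tset.1 a ha)).1 hc.symm
  have hw3 : (a * c) ^ 3 = 1 := (h.tset.2 a ha c hcD).resolve_left fun h2 =>
    hma ((commute_iff_sq (h.tset.1 a ha) (h.tset.1 c hcD)).2 h2)
  have hbc : b * c = (b * a) * (a * c) := by simp only [mul_assoc, cancel haa]
  rcases h.tset.2 b hb c hcD with h2 | h3
  · rw [hbc, hcomm.mul_pow, hu2, one_mul] at h2
    exact hma ((commute_iff_sq (h.tset.1 a ha) (h.tset.1 c hcD)).2 h2)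
  · rw [hbc, hcomm.mul_pow, hw3, mul_one, pow_succ, hu2, one_mul, mul_eq_one_iff_eq_inv,
      inv_self (h.tset.1 a ha)] at h3
    exact hab h3.symm

theorem GenClass.layer_isComponent [Finite G] (h : GenClass D) {d : G} (hd : d ∈ D)
    (hne : Cfsg.layer G ≠ ⊥) : Cfsg.IsComponent (Cfsg.layer G) := by
  obtain ⟨K, hK⟩ : ∃ K : Subgroup G, Cfsg.IsComponent K := by
    by_contra hcon
    push Not at hcon
    exact hne (le_bot_iff.1 (Cfsg.Lib.Comp.layer_le_iff.2 fun L hL => absurd hL (hcon L)))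
  have : Cfsg.layer G = K := le_antisymm
    (Cfsg.Lib.Comp.layer_le_iff.2 fun L hL => (h.component_unique hd hL hK).le)
    (Cfsg.Lib.Comp.component_le_layer hK)
  rwa [this]

theorem GenClass.fitting_le_center [Finite G] (h : GenClass D)
    (h2 : Cfsg.pCore 2 G ≤ Subgroup.center G) (h3 : Cfsg.pCore 3 G ≤ Subgroup.center G) :
    Cfsg.fittingSubgroup G ≤ Subgroup.center G := by
  rw [Cfsg.Lib.Solv.fitting_eq_iSup_pCore]
  refine iSup_le fun p => ?_
  rcases lt_or_ge 3 (p : ℕ) with hp | hp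
  · exact h.pCore_le_center p.2 hp
  · rcases (show (p : ℕ) = 2 ∨ (p : ℕ) = 3 by have := p.2.two_le; omega) with e | e <;> rw [e]
    · exact h2
    · exact h3

theorem center_le_fitting [Finite G] : Subgroup.center G ≤ Cfsg.fittingSubgroup G :=
  Cfsg.Lib.Solv.le_fitting inferInstance (Cfsg.Lib.Solv.nilpotent_of_commutator_le_center (fun x _ => Subgroup.mem_center_iff.2 fun y => Subtype.ext (Subgroup.mem_center_iff.1 x.2 (y : G))))

theorem GenClass.layer_ne_bot [Finite G] (h : GenClass D) (hD2 : ∃ a ∈ D, ∃ b ∈ D, a ≠ b)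
    (h2 : Cfsg.pCore 2 G ≤ Subgroup.center G) (h3 : Cfsg.pCore 3 G ≤ Subgroup.center G) :
    Cfsg.layer G ≠ ⊥ := by
  intro hE
  have hF := h.fitting_le_center h2 h3
  have hle := Cfsg.Lib.Comp.centralizer_fitting_le_of_layer_eq_bot hE
  have htop : ∀ g : G, g ∈ Subgroup.center G := fun g => hF (hle
    (Subgroup.mem_centralizer_iff.2 fun x hx => (Subgroup.mem_center_iff.1 (hF hx) g).symm))
  obtain ⟨a, ha, b, hb, hab⟩ := hD2
  obtain ⟨g, rfl⟩ := h.trans a ha b hb
  exact hab (by rw [Subgroup.mem_center_iff.1 (htop a) g, mul_inv_cancel_right])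

/-- A component of index at most two gives Fischer's hypotheses. -/
theorem GenClass.big_of_component [Finite G] (h : GenClass D) {L : Subgroup G}
    (hL : Cfsg.IsComponent L) [L.Normal]
    (hF : Cfsg.generalizedFittingSubgroup G = L ⊔ Subgroup.center G)
    (hFc : Cfsg.fittingSubgroup G ≤ Subgroup.center G)
    (hcomm : commutator G ≤ L) {d : G} (hd : d ∈ D) : Big D := by
  have hnc : ∃ a ∈ D, ∃ b ∈ D, ¬ Commute a b := by
    by_contra hall
    push Not at hall
    refine Cfsg.Lib.Comp.component_ne_bot hL ?_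
    rw [eq_bot_iff, ← Cfsg.Lib.Comp.component_perfect hL, ← h.commute_all hall, commutator_def]
    exact Subgroup.commutator_mono le_top le_top
  refine { h with big := ?_, nc := hnc, cpair := h.exists_cpair_of_component hL hd }
  intro K hK
  haveI := hK
  rcases Cfsg.Lib.Comp.component_subnormal hL hK.isSubnormal with hle | hbot
  · exact Or.inr (hcomm.trans hle)
  · left
    have hcL : K ≤ Subgroup.centralizer (L : Set G) :=
      Subgroup.commutator_eq_bot_iff_le_centralizer.1 (by rw [Subgroup.commutator_comm]; exact hbot)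
    intro x hx
    have hcent := hcL hx
    have h1 : x ∈ Subgroup.centralizer (Cfsg.generalizedFittingSubgroup G : Set G) := by
      rw [hF]
      refine Subgroup.mem_centralizer_iff.2 fun y hy => ?_
      obtain ⟨l, hl, z, hz, rfl⟩ := Subgroup.mem_sup_of_normal_right.1 hy
      have e1 : Commute l x := Subgroup.mem_centralizer_iff.1 hcent l hl
      have e2 : Commute z x := (Subgroup.mem_center_iff.1 hz x).symm
      exact e1.mul_left e2
    exact hFc (Cfsg.Lib.Comp.centralizer_fstar_le_fitting h1)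

end Cfsg.Lib.ThreeT

namespace Cfsg.Lib.ThreeT

variable {G : Type*} [Group G] {D : Set G}

theorem GenClass.component_eq_layer [Finite G] (h : GenClass D) {d : G} (hd : d ∈ D)
    {L : Subgroup G} (hL : Cfsg.IsComponent L) : L = Cfsg.layer G :=
  le_antisymm (Cfsg.Lib.Comp.component_le_layer hL)
    (Cfsg.Lib.Comp.layer_le_iff.2 fun K hK => (h.component_unique hd hK hL).le)

theorem GenClass.index_le_two_of_connected [Finite G] (h : GenClass D) {L : Subgroup G} [L.Normal]
    (hL : Cfsg.IsComponent L) {d : G} (hd : d ∈ D) (hcon : (Cfsg.commutingGraph D).Connected) :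
    L.index ≤ 2 := by
  obtain ⟨hpre⟩ := hcon
  have horb : ∀ y : D, ∃ n ∈ L, n * d * n⁻¹ = (y : G) := by
    intro y
    obtain ⟨w⟩ := hpre ⟨d, hd⟩ y
    suffices hw : ∀ {u v : D}, (Cfsg.commutingGraph D).Walk u v →
        (∃ n ∈ L, n * d * n⁻¹ = (u : G)) → ∃ n ∈ L, n * d * n⁻¹ = (v : G) from
      hw w ⟨1, one_mem _, by group⟩
    intro u v w
    induction w with
    | nil => exact id
    | @cons s t _ hst _ ih =>
      rintro ⟨n, hn, hnd⟩
      have hcst : Commute (s : G) (t : G) := hst.2.elim id Commute.symm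
      obtain ⟨m, hm, hms⟩ := h.component_orbit hL t t.2 s s.2 hcst.symm
      exact ih ⟨m * n, L.mul_mem hm hn, by rw [← conj_conj, hnd, hms]⟩
  have htop : Subgroup.zpowers d ⊔ L = ⊤ := by
    rw [eq_top_iff, ← h.gen, Subgroup.closure_le]
    intro y hy
    obtain ⟨n, hn, hny⟩ := horb ⟨y, hy⟩
    show y ∈ Subgroup.zpowers d ⊔ L
    rw [← show n * d * n⁻¹ = y from hny]
    exact mul_mem (mul_mem (Subgroup.mem_sup_right hn) (Subgroup.mem_sup_left (Subgroup.mem_zpowers d)))
      (inv_mem (Subgroup.mem_sup_right hn))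
  have hdvd : L.index ∣ 2 := by
    have hz : Subgroup.zpowers (d : G ⧸ L) = ⊤ := by
      rw [show (d : G ⧸ L) = QuotientGroup.mk' L d from rfl, ← MonoidHom.map_zpowers (QuotientGroup.mk' L) d, eq_top_iff,
        ← Subgroup.map_top_of_surjective _ (QuotientGroup.mk'_surjective L), ← htop, Subgroup.map_sup,
        QuotientGroup.map_mk'_self]
      exact sup_le le_rfl bot_le
    rw [Subgroup.index_eq_card, ← Subgroup.card_top (G := G ⧸ L), ← hz, Nat.card_zpowers]
    apply orderOf_dvd_of_pow_eq_one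
    rw [← QuotientGroup.mk_pow, ← h.tset.1 d hd, pow_orderOf_eq_one, QuotientGroup.mk_one]
  exact Nat.le_of_dvd (by norm_num) hdvd

/-- With index at most two the component contains the derived group. -/
theorem commutator_le_of_index_le_two [Finite G] {L : Subgroup G} [L.Normal] (hi : L.index ≤ 2) :
    commutator G ≤ L := by
  rw [commutator_def, Subgroup.commutator_le]
  intro p _ q _
  rw [← QuotientGroup.eq_one_iff]
  have hc : ∀ x y : G ⧸ L, Commute x y := by
    rcases (show L.index = 1 ∨ L.index = 2 by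
      have : L.index ≠ 0 := Subgroup.index_ne_zero_of_finite
      omega) with h1 | h1
    · intro x y
      haveI : Subsingleton (G ⧸ L) := (Nat.card_eq_one_iff_unique.1 (by rw [← Subgroup.index_eq_card]; exact h1)).1
      rw [Subsingleton.elim x y]
    · intro x y
      haveI : Fact (Nat.Prime 2) := ⟨Nat.prime_two⟩
      haveI : IsCyclic (G ⧸ L) := isCyclic_of_prime_card (p := 2) (by rw [← Subgroup.index_eq_card]; exact h1)
      obtain ⟨g, hg⟩ := IsCyclic.exists_generator (α := G ⧸ L)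
      obtain ⟨i, rfl⟩ := hg x
      obtain ⟨j, rfl⟩ := hg y
      exact Commute.zpow_zpow_self _ i j
  change (QuotientGroup.mk' L) _ = 1
  rw [map_commutatorElement, commutatorElement_eq_one_iff_commute]
  exact hc _ _

theorem Big.exists_sep [Finite G] (h : Big D) {a q : G} (ha : a ∈ D) (hq : q ∈ D)
    (haq : ¬ Commute a q) : ∃ e ∈ com D a, ¬ Commute e q := by
  by_contra hcon
  push Not at hcon
  have hsub : com D a ⊆ com D q := fun e he =>
    ⟨he.1, fun e' => haq (e' ▸ he.2.2), (hcon e he).symm⟩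
  obtain ⟨g, hg⟩ := h.trans a ha q hq
  have heq : com D a = com D q := Set.eq_of_subset_of_ncard_le hsub (by
    rw [← hg, ← image_com h.toGenClass, Set.ncard_image_of_injective _ (MulAut.conj g).injective])
  obtain ⟨p, hp, r, hr, hpr, hcpr⟩ := h.cpair
  have hall := h.primitive (fun u v => com D u = com D v) ⟨fun _ => rfl, Eq.symm, Eq.trans⟩
    (fun g u v e => by rw [← image_com h.toGenClass, ← image_com h.toGenClass, e]) ha hq
    (fun e => haq (e ▸ Commute.refl a)) heq p hp r hr
  have hrp : r ∈ com D p := ⟨hr, hpr.symm, hcpr⟩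
  rw [hall] at hrp
  exact hrp.2.1 rfl

/-- `⟨C_D(d)⟩` is a maximal `D`-subgroup. -/
theorem Big.com_maximal [Finite G] (h : Big D) {d e : G} (hd : d ∈ D) {H : Subgroup G}
    (hle : ∀ y ∈ D, Commute d y → y ∈ H) (he : e ∈ D) (heH : e ∈ H) (hde : ¬ Commute d e) :
    ∀ y ∈ D, y ∈ H := by
  have hdH : d ∈ H := hle d hd (Commute.refl d)
  have hreach : ∀ x ∈ D, x ∈ H → ∃ g ∈ H, g * d * g⁻¹ = x := by
    intro x hx hxH
    by_cases hxd : x = d
    · exact ⟨1, H.one_mem, by rw [hxd]; group⟩
    by_cases hc : Commute d x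
    · obtain ⟨y, hy, hye⟩ := h.exists_sep hd he hde
      obtain ⟨g, hg, hgy⟩ := h.com_conj hd hy ⟨hx, hxd, hc⟩
      have hgH : g ∈ H := (Subgroup.closure_le H).2 (fun z hz => hle z hz.1 hz.2.2) hg
      have hgd : g * d * g⁻¹ = d := fix_iff_commute.2 (commute_of_mem_closure_com hg)
      set e' := g * e * g⁻¹
      have he'D : e' ∈ D := h.conj g e he
      have he'H : e' ∈ H := H.mul_mem (H.mul_mem hgH heH) (H.inv_mem hgH)
      have hde' : ¬ Commute d e' := fun hh => hde ((commute_conj_iff g).1 (by rwa [hgd]))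
      have hxe' : ¬ Commute e' x := fun hh => hye ((commute_conj_iff g).1 (hgy ▸ hh)).symm
      refine ⟨e' * x * (d * e'), H.mul_mem (H.mul_mem he'H hxH) (H.mul_mem hdH he'H), ?_⟩
      rw [← conj_conj, conj_pair h.tset hd he'D hde', conj_pair h.tset he'D hx hxe']
    · exact ⟨d * x, H.mul_mem hdH hxH, conj_pair h.tset hd hx hc⟩
  intro y hy
  have hS := h.eq_of_c_closed (S := {x | x ∈ D ∧ x ∈ H}) (fun x hx => hx.1) ⟨hd, hdH⟩ (by
    rintro x ⟨hx, hxH⟩ z hz hxz
    obtain ⟨g, hg, rfl⟩ := hreach x hx hxH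
    refine ⟨hz, ?_⟩
    have h1 : g⁻¹ * z * g ∈ H := hle _ (conj_mem_of_conjInv h.conj hz) (by
      have := (commute_conj_iff g⁻¹).2 hxz
      rwa [show g⁻¹ * (g * d * g⁻¹) * g⁻¹⁻¹ = d by group, inv_inv] at this)
    have := H.mul_mem (H.mul_mem hg h1) (H.inv_mem hg)
    rwa [show g * (g⁻¹ * z * g) * g⁻¹ = z by group] at this)
  rw [← hS] at hy
  exact hy.2

end Cfsg.Lib.ThreeT
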